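import Cfsg.Agent.H252.LT.Base
import Cfsg.Agent.H239.CharPLocal

/-!
# S2927: from the hypotheses to the standing counterexample `Cx` (helper258)

`exists_cx`: the hypotheses of S2927 and `¬ IsCharPTall 2 Y_M` give `Cx S Q M`.
-/

set_option autoImplicit false
open Cfsg Subgroup
open Cfsg.Agent.H229 Cfsg.Agent.H230

namespace Cfsg.Agent.H258.TF

variable {G : Type*} [Group G]

/-- `N_G(R)` has characteristic `p` if `C_G(z)` has, `z ∈ Z(R)`. -/
theorem chP_norm_of_cent [Finite G] {p : ℕ} [Fact p.Prime] {R : Subgroup G} (hR : IsPGroup p ↥R) {z : G}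
    (hz : z ∈ R) (hzc : ∀ x ∈ R, x * z = z * x) (h : ChP p (centralizer ({z} : Set G))) :
    ChP p (normalizer (R : Set G)) :=
  chP_iff.2 (H239.CharPLocal.cp_normalizer_of_centralizer hR hz hzc (chP_iff.1 h))

/-- a `p`-subgroup of a normal subgroup `N` whose image in `M / O_p(M)` lies in the Frattini subgroup is contained in
`O_p(M)`. -/
theorem le_pCore_of_frattini {M : Type*} [Group M] [Finite M] {p : ℕ} [hp : Fact p.Prime] {N : Subgroup M}
    [hN : N.Normal] [hn : (pCore p M).Normal]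
    (h : N.map (QuotientGroup.mk' (pCore p M)) ≤ frattini (M ⧸ pCore p M)) {R : Subgroup M} (hR : IsPGroup p ↥R)
    (hRN : R ≤ N) : R ≤ pCore p M := by
  set π := QuotientGroup.mk' (pCore p M) with hπ
  have hsur : Function.Surjective π := QuotientGroup.mk'_surjective _
  have h1 : Group.IsNilpotent ↥(frattini (M ⧸ pCore p M)) := frattini_nilpotent
  have h2 : Group.IsNilpotent ↥(N.map π) := Group.nilpotent_of_mulEquiv (subgroupOfEquivOfLe h)
  have hNn : (N.map π).Normal := hN.map π hsur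
  -- the image of `R` lies in a Sylow subgroup of the image of `N`
  have hRb : IsPGroup p ↥((R.map π).subgroupOf (N.map π)) :=
    (hR.map π).comap_of_injective _ (Subgroup.subtype_injective _)
  obtain ⟨P, hP⟩ := hRb.exists_le_sylow
  have hPn : (P : Subgroup ↥(N.map π)).Normal := inferInstance
  have hP1 : (P : Subgroup ↥(N.map π)) ≤ pCore p ↥(N.map π) := Lib.Cores.le_pCore hPn P.2
  have h3 : (pCore p ↥(N.map π)).map (N.map π).subtype ≤ pCore p (M ⧸ pCore p M) := by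
    rw [Lib.Cores.map_subtype_pCore p hNn]
    exact inf_le_right
  have h4 : R.map π ≤ pCore p (M ⧸ pCore p M) := by
    refine le_trans ?_ ((Subgroup.map_mono (hP.trans hP1)).trans h3)
    rw [Subgroup.subgroupOf_map_subtype, inf_eq_left.2 (Subgroup.map_mono hRN)]
  rw [Lib.Cores.pCore_quotient_pCore, le_bot_iff, Subgroup.map_eq_bot_iff, QuotientGroup.ker_mk'] at h4
  exact h4

/-- the `p`-subgroups of `C_M(Y)` lie in `O_p(M)` -/
theorem le_core_of_frattini [Finite G] {p : ℕ} [hp : Fact p.Prime] {M Y : Subgroup G} (hMY : M ≤ normalizer (Y : Set G))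
    [hOn : (pCore p ↥M).Normal]
    (hfrat : ((M ⊓ centralizer (Y : Set G)).subgroupOf M).map (QuotientGroup.mk' (pCore p ↥M)) ≤
      frattini (↥M ⧸ pCore p ↥M)) {R : Subgroup G} (hR : IsPGroup p ↥R) (hRM : R ≤ M)
    (hRc : R ≤ centralizer (Y : Set G)) : R ≤ pCoreOf p M := by
  have hKn : ((M ⊓ centralizer (Y : Set G)).subgroupOf M).Normal := by
    refine (normal_subgroupOf_iff_le_normalizer inf_le_left).2 ?_
    refine le_trans ?_ (norm_inf_le _ _)
    exact le_inf le_normalizer (hMY.trans (norm_le_norm_centralizer _))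
  have h1 : R.subgroupOf M ≤ pCore p ↥M := by
    refine le_pCore_of_frattini (hN := hKn) hfrat (hR.comap_of_injective _ (Subgroup.subtype_injective _)) ?_
    intro x hx
    exact mem_subgroupOf.2 ⟨x.2, hRc (mem_subgroupOf.1 hx)⟩
  intro x hx
  exact ⟨⟨x, hRM hx⟩, h1 (mem_subgroupOf.2 hx), rfl⟩

theorem isPClosed_of {p : ℕ} {K T : Subgroup G} (hTK : T ≤ K) (hKT : K ≤ normalizer (T : Set G))
    (hT : IsPGroup p ↥T) (h1 : ∀ R : Subgroup G, IsPGroup p ↥R → R ≤ K → R ≤ T) : IsPClosed p ↥K := by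
  intro P
  have h2 : (P : Subgroup ↥K).map K.subtype = T := by
    have h3 : IsSylowOf p ((P : Subgroup ↥K).map K.subtype) K := ⟨P, rfl⟩
    rw [isSylowOf_iff_maximal] at h3
    exact (h3.2.2 _ hTK hT (h1 _ h3.2.1 h3.1)).symm
  have h4 : (T.subgroupOf K).Normal := (normal_subgroupOf_iff_le_normalizer hTK).2 hKT
  have h5 : (P : Subgroup ↥K) = T.subgroupOf K := by
    rw [← h2, Subgroup.subgroupOf, Subgroup.comap_map_eq_self_of_injective K.subtype_injective]
  rw [h5]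
  exact h4

/-- the basic property from the hypotheses of S2927 -/
theorem isInFrakM [Finite G] {p : ℕ} [hp : Fact p.Prime] {S : Sylow p G} {Q M : Subgroup G} (hl : LargeP p Q)
    (hQS : Q ≤ (S : Subgroup G)) (hSM : (S : Subgroup G) ≤ M)
    (hM : pCoreOf p M ≠ ⊥ ∧ centralizer (pCoreOf p M : Set G) ≤ pCoreOf p M)
    (hbasic : ∀ L : Subgroup G, M ≤ L → (pCoreOf p L ≠ ⊥ ∧ centralizer (pCoreOf p L : Set G) ≤ pCoreOf p L) →
      L ≤ dag p M)
    (hY : largestPReducedOf p M = largestPReducedOf p (dag p M)) [hOn : (pCore p ↥M).Normal]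
    (hfrat : ((M ⊓ centralizer (largestPReducedOf p M : Set G)).subgroupOf M).map
      (QuotientGroup.mk' (pCore p ↥M)) ≤ frattini (↥M ⧸ pCore p ↥M)) : IsInFrakM p M := by
  have hMc : M ∈ charPSubgroups p G := mem_charPSubgroups.2 hM
  have hYne : largestPReducedOf p M ≠ ⊥ := largest_ne_bot (chP_of_mem_charPSubgroups hMc) hM.1
  have hdne : pCoreOf p (dag p M) ≠ ⊥ := by
    intro h
    apply hYne
    rw [hY, ← le_bot_iff, ← h]
    exact largest_le_pCoreOf p _
  have hSd : (S : Subgroup G) ≤ dag p M := hSM.trans le_sup_left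
  have hdc : dag p M ∈ charPSubgroups p G := hl.mem_charPSubgroups S hQS hSd hdne
  refine ⟨hMc, ⟨hdc, ?_⟩, ?_, hY, ?_, hfrat⟩
  · intro L hL hdL
    exact le_antisymm (hbasic L (le_sup_left.trans hdL) (mem_charPSubgroups.1 hL)) hdL
  · intro X hX hMX
    have h1 := hbasic X hMX (mem_charPSubgroups.1 hX.1)
    exact (hX.2 _ hdc h1).symm
  · have hTK : pCoreOf p M ≤ M ⊓ centralizer (largestPReducedOf p M : Set G) :=
      le_inf (pCoreOf_le p M) (pCoreOf_le_centralizer_largest p M)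
    have h1 : ∀ R : Subgroup G, IsPGroup p ↥R → R ≤ M ⊓ centralizer (largestPReducedOf p M : Set G) →
        R ≤ pCoreOf p M := fun R hR hRK =>
      le_core_of_frattini (largest_normal p M) hfrat hR (hRK.trans inf_le_left) (hRK.trans inf_le_right)
    have hMK : M ⊓ centralizer (largestPReducedOf p M : Set G) ≤ normalizer (pCoreOf p M : Set G) :=
      inf_le_left.trans (le_norm_pCoreOf p M)
    exact isPClosed_of hTK hMK (isPGroup_pCoreOf p M) h1

section Setup

variable {p : ℕ} {S : Sylow p G} {Q M : Subgroup G} [Finite G] [hp : Fact p.Prime]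

/-- `O_p(M)` is a Sylow `p`-subgroup of `C_G(Y_M)` -/
theorem isSylowOf_core (h : Setup p S Q M) : IsSylowOf p (pCoreOf p M) (centralizer (largestPReducedOf p M : Set G)) := by
  rw [isSylowOf_iff_maximal]
  refine ⟨pCoreOf_le_centralizer_largest p M, isPGroup_pCoreOf p M, fun R hR hRp hTR => ?_⟩
  have h1 := h.inf_cent_eq hRp (hR.trans le_sup_right) hTR
  rwa [inf_eq_left.2 hR] at h1

/-- `Ω₁(Z(O_p(M))) = Y_M` -/
theorem zOmega_le (h : Setup p S Q M) : zOmega p (pCoreOf p M) ≤ largestPReducedOf p M := by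
  apply le_largest
  have hVT : zOmega p (pCoreOf p M) ≤ pCoreOf p M := fun x hx => hx.1
  refine ⟨hVT.trans (pCoreOf_le p M), (le_norm_pCoreOf p M).trans (norm_le_norm_zOmega p _), ea_zOmega p _, ?_⟩
  intro B hBM hMB hB
  have hBY : B ≤ centralizer (largestPReducedOf p M : Set G) := by
    refine (pRed_largest p M).2.2.2 B hBM hMB fun b hb => ?_
    obtain ⟨k, hk⟩ := hB b hb
    exact ⟨k, centralizer_le (show (largestPReducedOf p M : Set G) ⊆ _ from largest_le_zOmega p M) hk⟩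
  obtain ⟨R, hR⟩ := exists_isSylowOf (p := p) B
  refine le_centralizer_of_sylow le_rfl hB hR ?_
  have h1 : R ≤ pCoreOf p M := by
    have h2 : IsPGroup p ↥(pCoreOf p M ⊔ R : Subgroup G) :=
      isPGroup_sup_of_norm (isPGroup_pCoreOf p M) hR.isPGroup ((hR.le.trans hBM).trans (le_norm_pCoreOf p M))
    have h3 : pCoreOf p M ⊔ R ≤ dag p M := (sup_le (pCoreOf_le p M) (hR.le.trans hBM)).trans le_sup_left
    rw [← h.inf_cent_eq h2 h3 le_sup_left]
    exact le_inf le_sup_right (hR.le.trans hBY)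
  intro x hx
  rw [mem_centralizer_iff]
  intro y hy
  exact (mem_centralizer_iff.1 hy.2.1 x (h1 hx)).symm

end Setup

/-- **The standing counterexample.** -/
theorem exists_cx [Finite G] {S : Sylow 2 G}
    (hmax : ∃ M₁ M₂ : Subgroup G, M₁ ≠ M₂ ∧ Cfsg.IsMaximalTwoLocal M₁ ∧ Cfsg.IsMaximalTwoLocal M₂ ∧
      (S : Subgroup G) ≤ M₁ ∧ (S : Subgroup G) ≤ M₂) {Q M : Subgroup G} (hQS : Q ≤ (S : Subgroup G))
    (hQ1 : ((Cfsg.pCore 2 ↥(Subgroup.normalizer (Q : Set G))).map (Subgroup.normalizer (Q : Set G)).subtype) = Q)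
    (hQ2 : Subgroup.centralizer (Q : Set G) ≤ Q)
    (hQ3 : ∀ A : Subgroup G, A ≤ Q ⊓ Subgroup.centralizer (Q : Set G) → A ≠ ⊥ →
      Subgroup.normalizer (A : Set G) ≤ Subgroup.normalizer (Q : Set G)) (hSM : (S : Subgroup G) ≤ M)
    (hM : (((Cfsg.pCore 2 ↥M).map M.subtype) ≠ ⊥ ∧
      Subgroup.centralizer (((Cfsg.pCore 2 ↥M).map M.subtype) : Set G) ≤ ((Cfsg.pCore 2 ↥M).map M.subtype)))
    (hbasic : ∀ L : Subgroup G, M ≤ L → ((((Cfsg.pCore 2 ↥L).map L.subtype) ≠ ⊥ ∧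
      Subgroup.centralizer (((Cfsg.pCore 2 ↥L).map L.subtype) : Set G) ≤ ((Cfsg.pCore 2 ↥L).map L.subtype)) ↔
      (L ≤ (M ⊔ Subgroup.centralizer ((Cfsg.largestPReducedOf 2 M) : Set G)) ∧
        ((Cfsg.pCore 2 ↥L).map L.subtype) ≠ ⊥ ∧
        (M ⊔ Subgroup.centralizer ((Cfsg.largestPReducedOf 2 M) : Set G)) ⊓
          Subgroup.centralizer (((Cfsg.pCore 2 ↥L).map L.subtype) : Set G) ≤ ((Cfsg.pCore 2 ↥L).map L.subtype))))
    (hY : (Cfsg.largestPReducedOf 2 M) =
      Cfsg.largestPReducedOf 2 (M ⊔ Subgroup.centralizer ((Cfsg.largestPReducedOf 2 M) : Set G)))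
    [hOn : (Cfsg.pCore 2 ↥M).Normal]
    (hfrat : ((M ⊓ Subgroup.centralizer ((Cfsg.largestPReducedOf 2 M) : Set G)).subgroupOf M).map
      (QuotientGroup.mk' (Cfsg.pCore 2 ↥M)) ≤ frattini (↥M ⧸ Cfsg.pCore 2 ↥M))
    (hasym : ¬ Cfsg.IsSymmetricIn (Cfsg.largestPReducedOf 2 M))
    (htall : Cfsg.IsTall 2 (Cfsg.largestPReducedOf 2 M))
    (hnot : ¬ Cfsg.IsCharPTall 2 (Cfsg.largestPReducedOf 2 M)) : H252.LT.Cx S Q M := by
  have hM' : pCoreOf 2 M ≠ ⊥ ∧ centralizer (pCoreOf 2 M : Set G) ≤ pCoreOf 2 M := hM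
  have hQne : Q ≠ ⊥ := by
    rintro rfl
    apply hM'.1
    rw [eq_bot_iff]
    intro x _
    apply hQ2
    rw [mem_centralizer_iff]
    intro y hy
    rw [mem_bot.1 hy]; simp
  have hl : LargeP 2 Q := ⟨isPGroup_mono hQS S.2, hQne, hQ2, fun U hU hU1 => hQ3 U (le_inf (hU.trans hQ2) hU) hU1⟩
  have hst : Setup 2 S Q M :=
    ⟨hl, hQS, hSM, isInFrakM hl hQS hSM hM' (fun L hML hL => ((hbasic L hML).1 hL).1) hY hfrat⟩
  set Y := largestPReducedOf 2 M with hYdef
  set T := pCoreOf 2 M with hTdef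
  have hYT : Y ≤ T := largest_le_pCoreOf 2 M
  have hsyl := isSylowOf_core hst
  -- SHORT
  have hshort : ∀ L : Subgroup G, T ≤ L → ChP 2 L → Y ≤ pCoreOf 2 L := by
    intro L hTL hL
    by_contra hcon
    obtain ⟨P, hP⟩ := hsyl
    exact hnot ⟨P, L, by rw [hP]; exact hTL, chP_iff.1 hL, hcon⟩
  -- TALL
  have htall' : ∃ L : Subgroup G, T ≤ L ∧ pCoreOf 2 L ≠ ⊥ ∧ ¬ Y ≤ pCoreOf 2 L := by
    obtain ⟨P, L, h1, h2, h3⟩ := htall
    obtain ⟨a, ha, haT⟩ := (IsSylowOf.of_sylow P).exists_conj hsyl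
    have haY : cj a Y = Y := mem_norm.1 (centralizer_le_norm _ ha)
    refine ⟨cj a L, ?_, ?_, ?_⟩
    · have haT' : cj a ((P : Subgroup ↥(centralizer (Y : Set G))).map (centralizer (Y : Set G)).subtype) = T := haT
      rw [← haT']; exact cj_mono h1
    · rw [pCoreOf_cj, Ne, cj_eq_bot, pCoreOf_eq_bot_iff]; exact h2
    · rw [pCoreOf_cj, ← haY, cj_le_cj]; exact h3
  -- BAD
  have hbad : ∃ x ∈ Y, x ≠ 1 ∧ ¬ ChP 2 (centralizer ({x} : Set G)) := by
    by_contra hcon
    push Not at hcon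
    obtain ⟨L, hTL, hL1, hYL⟩ := htall'
    set R := pCoreOf 2 L with hR
    have hRp : IsPGroup 2 ↥R := isPGroup_pCoreOf 2 L
    have hTR : T ≤ normalizer (R : Set G) := hTL.trans (le_norm_pCoreOf 2 L)
    have hZ1 : R ⊓ centralizer (R : Set G) ≠ ⊥ :=
      PLocal.OffenderStep.inf_centralizer_ne_bot R R hRp hRp le_normalizer hL1
    have hTZ : T ≤ normalizer ((R ⊓ centralizer (R : Set G) : Subgroup G) : Set G) :=
      (le_inf hTR (hTR.trans (norm_le_norm_centralizer _))).trans (norm_inf_le _ _)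
    have hZp : IsPGroup 2 ↥(R ⊓ centralizer (R : Set G) : Subgroup G) := isPGroup_mono inf_le_left hRp
    have hne : (R ⊓ centralizer (R : Set G)) ⊓ centralizer (T : Set G) ≠ ⊥ :=
      PLocal.OffenderStep.inf_centralizer_ne_bot _ T hZp (isPGroup_pCoreOf 2 M) hTZ hZ1
    obtain ⟨z, hz, hzo⟩ : ∃ z ∈ (R ⊓ centralizer (R : Set G)) ⊓ centralizer (T : Set G), orderOf z = 2 := by
      have h1 : IsPGroup 2 ↥((R ⊓ centralizer (R : Set G)) ⊓ centralizer (T : Set G) : Subgroup G) :=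
        isPGroup_mono inf_le_left hZp
      have h2 : 2 ∣ Nat.card ↥((R ⊓ centralizer (R : Set G)) ⊓ centralizer (T : Set G) : Subgroup G) := by
        obtain ⟨n, hn⟩ := IsPGroup.iff_card.1 h1
        have h3 : n ≠ 0 := by
          rintro rfl
          rw [pow_zero, Subgroup.card_eq_one] at hn
          exact hne hn
        rw [hn]
        exact dvd_pow_self 2 h3
      obtain ⟨w, hw⟩ := exists_prime_orderOf_dvd_card' 2 h2
      exact ⟨w, w.2, by rw [Subgroup.orderOf_coe, hw]⟩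
    have hz2 : z ^ 2 = 1 := by rw [← hzo]; exact pow_orderOf_eq_one z
    have hz1 : z ≠ 1 := by
      rintro rfl
      rw [orderOf_one] at hzo
      omega
    have hzY : z ∈ Y := zOmega_le hst ⟨hst.cent_core hz.2, hz.2, hz2⟩
    have hN : ChP 2 (normalizer (R : Set G)) :=
      chP_norm_of_cent hRp hz.1.1 (fun x hx => mem_centralizer_iff.1 hz.1.2 x hx) (hcon z hzY hz1)
    have h3 : Y ≤ pCoreOf 2 (normalizer (R : Set G)) := hshort _ hTR hN
    apply hYL
    exact (le_inf h3 (hYT.trans hTL)).trans (pCoreOf_inf_le (le_norm_pCoreOf 2 L))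
  refine ⟨hst, hQ1, hmax, hasym, hshort, hbad, ?_⟩
  -- FIX
  intro y hy hMy
  by_contra hy1
  have h1 : zpowers y ≤ centralizer (Q : Set G) := by
    rw [zpowers_le, mem_centralizer_iff]
    intro q hq
    exact mem_centralizer_singleton_iff.1 (hMy (hSM (hQS hq)))
  have h2 : zpowers y ≠ ⊥ := by rwa [Ne, zpowers_eq_bot]
  have h3 : M ≤ normalizer (Q : Set G) := by
    refine hMy.trans (le_trans ?_ (hl.norm h1 h2))
    exact (H252.LT.centralizer_singleton_le_zpowers y).trans (centralizer_le_norm _)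
  have hQT : Q ≤ T := le_pCoreOf (hQS.trans hSM) h3 hl.pgroup
  obtain ⟨x, hx, hx1, hxb⟩ := hbad
  apply hxb
  have hxT := largest_le_zOmega 2 M hx
  have hQx : Q ≤ centralizer ({x} : Set G) := by
    intro q hq
    rw [mem_centralizer_singleton_iff]
    exact mem_centralizer_iff.1 hxT.2.1 q (hQT hq)
  apply hl.chP hQx
  intro h4
  apply hx1
  have h5 : zpowers x ≤ pCoreOf 2 (centralizer ({x} : Set G)) := by
    refine le_pCoreOf ?_ ?_ ?_
    · rw [zpowers_le, mem_centralizer_singleton_iff]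
    · exact (H252.LT.centralizer_singleton_le_zpowers x).trans (centralizer_le_norm _)
    · exact isPGroup_mono (zpowers_le.2 hxT.1) (isPGroup_pCoreOf 2 M)
  rw [h4, le_bot_iff, zpowers_eq_bot] at h5
  exact h5

end Cfsg.Agent.H258.TF
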