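import Cfsg.Agent.H17.LT.Defs
import Cfsg.Agent.ClassicalGeometry.AutPSL.Main
import Cfsg.Agent.ClassicalGeometry.AutPSL.SylowU

/-!
# S2927: `PSL₃(2ⁿ)` has a `WPair` (helper258)
-/

set_option autoImplicit false
set_option linter.unusedSectionVars false
set_option linter.unusedVariables false

namespace Cfsg.Agent.H258.W3

open Matrix Cfsg
open Cfsg.Agent.ClassicalGeometry.AutPSL.Root
open Cfsg.Agent.ClassicalGeometry.AutPSL.SylowU

variable {F : Type*} [Field F]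

/-- the first basis vector -/
abbrev e0 (F : Type*) [Field F] : Fin 3 → F := Pi.single 0 1
/-- the last basis vector -/
abbrev e2 (F : Type*) [Field F] : Fin 3 → F := Pi.single 2 1

/-- conjugates of `1 + a φᵀ` -/
theorem conj_tr (g : Matrix.SpecialLinearGroup (Fin 3) F) (a φ : Fin 3 → F) (h : φ ⬝ᵥ a = 0) :
    ∃ h', g * tr a φ h * g⁻¹ = tr ((g : Matrix (Fin 3) (Fin 3) F) *ᵥ a)
      (φ ᵥ* ((g⁻¹ : Matrix.SpecialLinearGroup (Fin 3) F) : Matrix (Fin 3) (Fin 3) F)) h' := by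
  have hg : ((g⁻¹ : Matrix.SpecialLinearGroup (Fin 3) F) : Matrix (Fin 3) (Fin 3) F) * (g : Matrix (Fin 3) (Fin 3) F) = 1 := by
    rw [← Matrix.SpecialLinearGroup.coe_mul, inv_mul_cancel, Matrix.SpecialLinearGroup.coe_one]
  have hg' : (g : Matrix (Fin 3) (Fin 3) F) * ((g⁻¹ : Matrix.SpecialLinearGroup (Fin 3) F) : Matrix (Fin 3) (Fin 3) F) = 1 := by
    rw [← Matrix.SpecialLinearGroup.coe_mul, mul_inv_cancel, Matrix.SpecialLinearGroup.coe_one]
  refine ⟨?_, ?_⟩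
  · rw [← dotProduct_mulVec, mulVec_mulVec, hg, one_mulVec, h]
  · apply Subtype.ext
    change (g : Matrix (Fin 3) (Fin 3) F) * (1 + vecMulVec a φ) * _ = 1 + vecMulVec _ _
    rw [mul_add, mul_one, add_mul, hg', mul_vecMulVec, vecMulVec_mul]

theorem tr_smul (a φ : Fin 3 → F) (c : F) (h : φ ⬝ᵥ (c • a) = 0) (h' : (c • φ) ⬝ᵥ a = 0) :
    tr (c • a) φ h = tr a (c • φ) h' := by
  apply Subtype.ext
  change 1 + vecMulVec _ _ = 1 + vecMulVec _ _
  rw [smul_vecMulVec, vecMulVec_smul]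

/-- `1 + e₀ φᵀ` -/
def SA (F : Type*) [Field F] : Subgroup (Matrix.SpecialLinearGroup (Fin 3) F) where
  carrier := {g | ∃ (φ : Fin 3 → F) (h : φ ⬝ᵥ e0 F = 0), g = tr (e0 F) φ h}
  mul_mem' := by
    rintro _ _ ⟨φ, h, rfl⟩ ⟨ψ, h', rfl⟩
    exact ⟨φ + ψ, _, tr_mul_same_center _ _ _ h h'⟩
  one_mem' := ⟨0, by simp, by
    apply Subtype.ext
    change (1 : Matrix (Fin 3) (Fin 3) F) = 1 + vecMulVec _ _
    rw [vecMulVec_zero, add_zero]⟩
  inv_mem' := by
    rintro _ ⟨φ, h, rfl⟩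
    refine ⟨-φ, by rw [neg_dotProduct, h, neg_zero], ?_⟩
    rw [inv_eq_iff_mul_eq_one, tr_mul_same_center]
    apply Subtype.ext
    change 1 + vecMulVec _ _ = (1 : Matrix (Fin 3) (Fin 3) F)
    rw [add_neg_cancel, vecMulVec_zero, add_zero]

/-- `1 + a e₂ᵀ` -/
def SB (F : Type*) [Field F] : Subgroup (Matrix.SpecialLinearGroup (Fin 3) F) where
  carrier := {g | ∃ (a : Fin 3 → F) (h : e2 F ⬝ᵥ a = 0), g = tr a (e2 F) h}
  mul_mem' := by
    rintro _ _ ⟨a, h, rfl⟩ ⟨b, h', rfl⟩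
    exact ⟨a + b, _, tr_mul_same_axis _ _ _ h h'⟩
  one_mem' := ⟨0, by simp, by
    apply Subtype.ext
    change (1 : Matrix (Fin 3) (Fin 3) F) = 1 + vecMulVec _ _
    rw [zero_vecMulVec, add_zero]⟩
  inv_mem' := by
    rintro _ ⟨a, h, rfl⟩
    refine ⟨-a, by rw [dotProduct_neg, h, neg_zero], ?_⟩
    rw [inv_eq_iff_mul_eq_one, tr_mul_same_axis]
    apply Subtype.ext
    change 1 + vecMulVec _ _ = (1 : Matrix (Fin 3) (Fin 3) F)
    rw [add_neg_cancel, zero_vecMulVec, add_zero]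

/-- the image of `SA` -/
def A (F : Type*) [Field F] : Subgroup (Matrix.ProjectiveSpecialLinearGroup (Fin 3) F) := (SA F).map pr
/-- the image of `SB` -/
def B (F : Type*) [Field F] : Subgroup (Matrix.ProjectiveSpecialLinearGroup (Fin 3) F) := (SB F).map pr

theorem mem_A {x : Matrix.ProjectiveSpecialLinearGroup (Fin 3) F} :
    x ∈ A F ↔ ∃ (φ : Fin 3 → F) (h : φ ⬝ᵥ e0 F = 0), x = pr (tr (e0 F) φ h) := by
  constructor
  · rintro ⟨_, ⟨φ, h, rfl⟩, rfl⟩
    exact ⟨φ, h, rfl⟩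
  · rintro ⟨φ, h, rfl⟩
    exact ⟨_, ⟨φ, h, rfl⟩, rfl⟩

theorem mem_B {x : Matrix.ProjectiveSpecialLinearGroup (Fin 3) F} :
    x ∈ B F ↔ ∃ (a : Fin 3 → F) (h : e2 F ⬝ᵥ a = 0), x = pr (tr a (e2 F) h) := by
  constructor
  · rintro ⟨_, ⟨φ, h, rfl⟩, rfl⟩
    exact ⟨φ, h, rfl⟩
  · rintro ⟨φ, h, rfl⟩
    exact ⟨_, ⟨φ, h, rfl⟩, rfl⟩

/-- if a conjugate of `1 + e₀ φᵀ ≠ 1` lies in `A`, then `g e₀` is a multiple of `e₀` -/
theorem e0_of {g : Matrix.SpecialLinearGroup (Fin 3) F} {φ : Fin 3 → F} {h : φ ⬝ᵥ e0 F = 0} (hφ : φ ≠ 0)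
    (hg : pr g * pr (tr (e0 F) φ h) * (pr g)⁻¹ ∈ A F) :
    ∃ c : F, (g : Matrix (Fin 3) (Fin 3) F) *ᵥ e0 F = c • e0 F := by
  rw [← map_inv, ← map_mul, ← map_mul] at hg
  obtain ⟨h', hc⟩ := conj_tr g (e0 F) φ h
  rw [hc, mem_A] at hg
  obtain ⟨ψ, hψ, he⟩ := hg
  refine exists_smul_of_vecMulVec_eq (φ := φ ᵥ* ((g⁻¹ : Matrix.SpecialLinearGroup (Fin 3) F) : Matrix (Fin 3) (Fin 3) F))
    ?_ (tr_eq_iff.1 (tr_eq_of_pr_eq he))
  intro h0
  apply hφ
  have h1 := congrArg (fun v => v ᵥ* (g : Matrix (Fin 3) (Fin 3) F)) h0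
  simp only [vecMul_vecMul, zero_vecMul] at h1
  rwa [← Matrix.SpecialLinearGroup.coe_mul, inv_mul_cancel, Matrix.SpecialLinearGroup.coe_one, vecMul_one] at h1

/-- if a conjugate of `1 + a e₂ᵀ ≠ 1` lies in `B`, then `e₂ᵀ g⁻¹` is a multiple of `e₂ᵀ` -/
theorem e2_of {g : Matrix.SpecialLinearGroup (Fin 3) F} {a : Fin 3 → F} {h : e2 F ⬝ᵥ a = 0} (ha : a ≠ 0)
    (hg : pr g * pr (tr a (e2 F) h) * (pr g)⁻¹ ∈ B F) :
    ∃ c : F, e2 F ᵥ* ((g⁻¹ : Matrix.SpecialLinearGroup (Fin 3) F) : Matrix (Fin 3) (Fin 3) F) = c • e2 F := by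
  rw [← map_inv, ← map_mul, ← map_mul] at hg
  obtain ⟨h', hc⟩ := conj_tr g a (e2 F) h
  rw [hc, mem_B] at hg
  obtain ⟨ψ, hψ, he⟩ := hg
  refine exists_smul_of_vecMulVec_eq' (a := (g : Matrix (Fin 3) (Fin 3) F) *ᵥ a) ?_ (tr_eq_iff.1 (tr_eq_of_pr_eq he))
  intro h0
  apply ha
  have h1 := congrArg (fun v => ((g⁻¹ : Matrix.SpecialLinearGroup (Fin 3) F) : Matrix (Fin 3) (Fin 3) F) *ᵥ v) h0
  simp only [mulVec_mulVec, mulVec_zero] at h1
  rwa [← Matrix.SpecialLinearGroup.coe_mul, inv_mul_cancel, Matrix.SpecialLinearGroup.coe_one, one_mulVec] at h1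

theorem conj_A {g : Matrix.SpecialLinearGroup (Fin 3) F} {c : F}
    (hg : (g : Matrix (Fin 3) (Fin 3) F) *ᵥ e0 F = c • e0 F) {x : Matrix.ProjectiveSpecialLinearGroup (Fin 3) F}
    (hx : x ∈ A F) : pr g * x * (pr g)⁻¹ ∈ A F := by
  obtain ⟨φ, h, rfl⟩ := mem_A.1 hx
  rw [← map_inv, ← map_mul, ← map_mul]
  obtain ⟨h', hc⟩ := conj_tr g (e0 F) φ h
  rw [hc, mem_A]
  refine ⟨c • (φ ᵥ* ((g⁻¹ : Matrix.SpecialLinearGroup (Fin 3) F) : Matrix (Fin 3) (Fin 3) F)), ?_, ?_⟩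
  · rw [hg] at h'
    rw [smul_dotProduct, ← dotProduct_smul]
    exact h'
  · congr 1
    apply Subtype.ext
    change 1 + vecMulVec _ _ = 1 + vecMulVec _ _
    rw [hg, smul_vecMulVec, vecMulVec_smul]

theorem conj_B {g : Matrix.SpecialLinearGroup (Fin 3) F} {c : F}
    (hg : e2 F ᵥ* ((g⁻¹ : Matrix.SpecialLinearGroup (Fin 3) F) : Matrix (Fin 3) (Fin 3) F) = c • e2 F)
    {x : Matrix.ProjectiveSpecialLinearGroup (Fin 3) F}
    (hx : x ∈ B F) : pr g * x * (pr g)⁻¹ ∈ B F := by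
  obtain ⟨φ, h, rfl⟩ := mem_B.1 hx
  rw [← map_inv, ← map_mul, ← map_mul]
  obtain ⟨h', hc⟩ := conj_tr g φ (e2 F) h
  rw [hc, mem_B]
  refine ⟨c • ((g : Matrix (Fin 3) (Fin 3) F) *ᵥ φ), ?_, ?_⟩
  · rw [hg] at h'
    rw [dotProduct_smul, ← smul_dotProduct]
    exact h'
  · congr 1
    apply Subtype.ext
    change 1 + vecMulVec _ _ = 1 + vecMulVec _ _
    rw [hg, smul_vecMulVec, vecMulVec_smul]

variable [Fintype F]

theorem mem_norm_of {H : Type*} [Group H] [Finite H] {N : Subgroup H} {x : H} (h : ∀ y ∈ N, x * y * x⁻¹ ∈ N) :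
    x ∈ Subgroup.normalizer (N : Set H) := by
  have h1 : Cfsg.Agent.H229.cj x N = N := by
    apply Subgroup.eq_of_le_of_card_ge
    · rintro _ ⟨y, hy, rfl⟩
      exact h y hy
    · rw [Cfsg.Agent.H229.card_cj]
  exact Cfsg.Agent.H229.mem_norm.2 h1

theorem mem_norm_A {g : Matrix.SpecialLinearGroup (Fin 3) F} :
    pr g ∈ Subgroup.normalizer (A F : Set (Matrix.ProjectiveSpecialLinearGroup (Fin 3) F)) ↔
      ∃ c : F, (g : Matrix (Fin 3) (Fin 3) F) *ᵥ e0 F = c • e0 F := by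
  constructor
  · intro h
    have h0 : (Pi.single 1 1 : Fin 3 → F) ⬝ᵥ e0 F = 0 := by simp
    have h1 : pr (tr (e0 F) (Pi.single 1 1) h0) ∈ A F := mem_A.2 ⟨_, h0, rfl⟩
    exact e0_of (by simp) ((Subgroup.mem_normalizer_iff.1 h _).1 h1)
  · rintro ⟨c, hc⟩
    exact mem_norm_of fun y hy => conj_A hc hy

theorem mem_norm_B {g : Matrix.SpecialLinearGroup (Fin 3) F} :
    pr g ∈ Subgroup.normalizer (B F : Set (Matrix.ProjectiveSpecialLinearGroup (Fin 3) F)) ↔
      ∃ c : F, e2 F ᵥ* ((g⁻¹ : Matrix.SpecialLinearGroup (Fin 3) F) : Matrix (Fin 3) (Fin 3) F) = c • e2 F := by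
  constructor
  · intro h
    have h0 : e2 F ⬝ᵥ (Pi.single 1 1 : Fin 3 → F) = 0 := by simp
    have h1 : pr (tr (Pi.single 1 1) (e2 F) h0) ∈ B F := mem_B.2 ⟨_, h0, rfl⟩
    exact e2_of (by simp) ((Subgroup.mem_normalizer_iff.1 h _).1 h1)
  · rintro ⟨c, hc⟩
    exact mem_norm_of fun y hy => conj_B hc hy


/-! ### the unitriangular group -/

/-- the image of the unitriangular group -/
abbrev PU (F : Type*) [Field F] [Fintype F] : Subgroup (Matrix.ProjectiveSpecialLinearGroup (Fin 3) F) :=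
  (upper 3 F).map pr

theorem entries {u : Matrix.SpecialLinearGroup (Fin 3) F} (hu : u ∈ upper 3 F) :
    (u : Matrix (Fin 3) (Fin 3) F) = !![1, u.1 0 1, u.1 0 2; 0, 1, u.1 1 2; 0, 0, 1] := by
  rw [mem_upper] at hu
  ext i j
  fin_cases i <;> fin_cases j
  · exact hu 0 0 le_rfl
  · rfl
  · rfl
  · exact hu 1 0 (by decide)
  · exact hu 1 1 le_rfl
  · rfl
  · exact hu 2 0 (by decide)
  · exact hu 2 1 (by decide)
  · exact hu 2 2 le_rfl

theorem mem_upper_of {u : Matrix.SpecialLinearGroup (Fin 3) F} {a b c : F}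
    (h : (u : Matrix (Fin 3) (Fin 3) F) = !![1, a, c; 0, 1, b; 0, 0, 1]) : u ∈ upper 3 F := by
  rw [mem_upper]
  intro i j hij
  rw [h]
  fin_cases i <;> fin_cases j <;> first | rfl | exact absurd hij (by decide)

theorem SA_le : SA F ≤ upper 3 F := by
  rintro _ ⟨φ, h, rfl⟩
  have h0 : φ 0 = 0 := by simpa using h
  apply mem_upper_of (a := φ 1) (b := 0) (c := φ 2)
  rw [coe_tr]
  ext i j
  fin_cases i <;> fin_cases j <;> simp [vecMulVec_apply, h0]

theorem SB_le : SB F ≤ upper 3 F := by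
  rintro _ ⟨φ, h, rfl⟩
  have h0 : φ 2 = 0 := by simpa using h
  apply mem_upper_of (a := 0) (b := φ 1) (c := φ 0)
  rw [coe_tr]
  ext i j
  fin_cases i <;> fin_cases j <;> simp [vecMulVec_apply, h0]

theorem mem_SA {u : Matrix.SpecialLinearGroup (Fin 3) F} (hu : u ∈ upper 3 F) (h : u.1 1 2 = 0) : u ∈ SA F := by
  refine ⟨![0, u.1 0 1, u.1 0 2], by simp, ?_⟩
  apply Subtype.ext
  change u.1 = 1 + vecMulVec _ _
  rw [entries hu]
  ext i j
  rw [Matrix.add_apply, vecMulVec_apply]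
  fin_cases i <;> fin_cases j <;> simp [h]

theorem mem_SB {u : Matrix.SpecialLinearGroup (Fin 3) F} (hu : u ∈ upper 3 F) (h : u.1 0 1 = 0) : u ∈ SB F := by
  refine ⟨![u.1 0 2, u.1 1 2, 0], by simp, ?_⟩
  apply Subtype.ext
  change u.1 = 1 + vecMulVec _ _
  rw [entries hu]
  ext i j
  rw [Matrix.add_apply, vecMulVec_apply]
  fin_cases i <;> fin_cases j <;> simp [h]

theorem upper_le_sup : upper 3 F ≤ SA F ⊔ SB F := by
  intro u hu
  have h1 : tr (e0 F) ![0, u.1 0 1, 0] (by simp) ∈ SA F := ⟨_, _, rfl⟩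
  have h2 : tr ![u.1 0 2 - u.1 0 1 * u.1 1 2, u.1 1 2, 0] (e2 F) (by simp) ∈ SB F := ⟨_, _, rfl⟩
  have h3 : u = tr (e0 F) ![0, u.1 0 1, 0] (by simp) * tr ![u.1 0 2 - u.1 0 1 * u.1 1 2, u.1 1 2, 0] (e2 F) (by simp) := by
    apply Subtype.ext
    change u.1 = (1 + vecMulVec _ _) * (1 + vecMulVec _ _)
    rw [entries hu]
    ext i j
    rw [Matrix.mul_apply, Fin.sum_univ_three]
    simp only [Matrix.add_apply, vecMulVec_apply, Matrix.one_apply]
    fin_cases i <;> fin_cases j <;> simp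
  rw [h3]
  exact mul_mem (Subgroup.mem_sup_left h1) (Subgroup.mem_sup_right h2)

theorem A_le : A F ≤ PU F := Subgroup.map_mono SA_le
theorem B_le : B F ≤ PU F := Subgroup.map_mono SB_le

theorem PU_eq : PU F = A F ⊔ B F := by
  apply le_antisymm
  · rw [A, B, ← Subgroup.map_sup]
    exact Subgroup.map_mono upper_le_sup
  · exact sup_le A_le B_le

theorem isPGroup_upper [CharP F 2] : IsPGroup 2 ↥(upper 3 F) := by
  obtain ⟨k, hp, hk⟩ := FiniteField.card F 2
  apply IsPGroup.of_card (n := k * (3 * (3 - 1) / 2))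
  rw [card_upper, hk, pow_mul]

theorem center_pow_three {z : Matrix.SpecialLinearGroup (Fin 3) F}
    (hz : z ∈ Subgroup.center (Matrix.SpecialLinearGroup (Fin 3) F)) : z ^ 3 = 1 := by
  obtain ⟨r, hr, hr'⟩ := Matrix.SpecialLinearGroup.mem_center_iff.1 hz
  rw [Fintype.card_fin] at hr
  apply Subtype.ext
  rw [Matrix.SpecialLinearGroup.coe_pow, ← hr', ← map_pow, hr, map_one, Matrix.SpecialLinearGroup.coe_one]

/-- a conjugate of a unitriangular matrix which is unitriangular up to a scalar is unitriangular -/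
theorem upper_of_pr [CharP F 2] {g u : Matrix.SpecialLinearGroup (Fin 3) F} (hu : u ∈ upper 3 F)
    (h : pr (g * u * g⁻¹) ∈ PU F) : g * u * g⁻¹ ∈ upper 3 F := by
  obtain ⟨u', hu', he⟩ := h
  have h1 : pr (u'⁻¹ * (g * u * g⁻¹)) = 1 := by
    rw [map_mul, map_inv, he, inv_mul_cancel]
  rw [pr_eq_one_iff] at h1
  set z := u'⁻¹ * (g * u * g⁻¹) with hz
  have h2 : g * u * g⁻¹ = u' * z := by rw [hz]; group
  obtain ⟨j, hj⟩ := isPGroup_upper ⟨u, hu⟩
  obtain ⟨k, hk⟩ := isPGroup_upper ⟨u', hu'⟩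
  have hj' : u ^ 2 ^ j = 1 := congrArg Subtype.val hj
  have hk' : u' ^ 2 ^ k = 1 := congrArg Subtype.val hk
  have hc : Commute u' z := (Subgroup.mem_center_iff.1 h1 u')
  have h3 : z ^ 2 ^ (j + k) = 1 := by
    have e1 : (g * u * g⁻¹) ^ 2 ^ (j + k) = 1 := by
      rw [conj_pow, pow_add, pow_mul, hj', one_pow, mul_one, mul_inv_cancel]
    rw [h2, hc.mul_pow, pow_add, mul_comm (2 ^ j), pow_mul, hk', one_pow, one_mul] at e1
    rwa [pow_add, mul_comm (2 ^ j)]
  have h4 : z = 1 := by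
    have h5 := center_pow_three h1
    have h6 : orderOf z ∣ 3 := orderOf_dvd_of_pow_eq_one h5
    have h7 : orderOf z ∣ 2 ^ (j + k) := orderOf_dvd_of_pow_eq_one h3
    have h8 : Nat.Coprime 3 (2 ^ (j + k)) := Nat.Coprime.pow_right _ (by norm_num)
    exact orderOf_eq_one_iff.1 (Nat.eq_one_of_dvd_coprimes h8 h6 h7)
  rw [h2, h4, mul_one]
  exact hu'

/-! ### `A = O₂(N(A))`, `B = O₂(N(B))` -/

theorem sylow_le [CharP F 2] {X : Subgroup (Matrix.ProjectiveSpecialLinearGroup (Fin 3) F)} (hX : PU F ≤ X) :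
    pCoreOf 2 X ≤ PU F := by
  obtain ⟨S, hS⟩ := exists_sylow (F := F) 3 2
  have h1 : IsPGroup 2 ↥((S : Subgroup _) ⊔ pCoreOf 2 X) := by
    apply IsPGroup.to_sup_of_normal_right' S.2 (H229.isPGroup_pCoreOf 2 X)
    rw [hS]
    exact hX.trans (H229.le_norm_pCoreOf 2 X)
  have h2 := S.is_maximal' h1 le_sup_left
  rw [PU, ← hS, ← h2]
  exact le_sup_right

theorem PU_norm_A : PU F ≤ Subgroup.normalizer (A F : Set (Matrix.ProjectiveSpecialLinearGroup (Fin 3) F)) := by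
  rintro _ ⟨u, hu, rfl⟩
  refine mem_norm_A.2 ⟨1, ?_⟩
  rw [entries hu]
  ext i
  fin_cases i <;> simp [Matrix.mulVec, dotProduct, Fin.sum_univ_three]

theorem PU_norm_B : PU F ≤ Subgroup.normalizer (B F : Set (Matrix.ProjectiveSpecialLinearGroup (Fin 3) F)) := by
  rintro _ ⟨u, hu, rfl⟩
  refine mem_norm_B.2 ⟨1, ?_⟩
  rw [entries (inv_mem hu)]
  ext i
  fin_cases i <;> simp [Matrix.vecMul, dotProduct, Fin.sum_univ_three]

theorem isPGroup_PU [CharP F 2] : IsPGroup 2 ↥(PU F) := isPGroup_upper.map _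

theorem core_A [CharP F 2] :
    pCoreOf 2 (Subgroup.normalizer (A F : Set (Matrix.ProjectiveSpecialLinearGroup (Fin 3) F))) = A F := by
  apply le_antisymm
  · intro x hx
    obtain ⟨u, hu, rfl⟩ := sylow_le PU_norm_A hx
    refine ⟨u, mem_SA hu ?_, rfl⟩
    have h21 : (2 : Fin 3) ≠ 1 := by decide
    set w : Matrix.SpecialLinearGroup (Fin 3) F := Matrix.SpecialLinearGroup.transvection h21 1 with hw
    have hwA : pr w ∈ Subgroup.normalizer (A F : Set (Matrix.ProjectiveSpecialLinearGroup (Fin 3) F)) := by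
      refine mem_norm_A.2 ⟨1, ?_⟩
      rw [hw, transvection_eq_tr, tr_mulVec]
      simp
    have h1 : pr w * pr u * (pr w)⁻¹ ∈ pCoreOf 2 (Subgroup.normalizer (A F : Set (Matrix.ProjectiveSpecialLinearGroup (Fin 3) F))) :=
      (Subgroup.mem_normalizer_iff.1 (H229.le_norm_pCoreOf 2 _ hwA) _).1 hx
    have h2 := sylow_le PU_norm_A h1
    rw [← map_inv, ← map_mul, ← map_mul] at h2
    have h3 := upper_of_pr hu h2
    rw [mem_upper] at h3
    have h4 := h3 2 1 (by decide)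
    have h5 : ((w * u * w⁻¹ : Matrix.SpecialLinearGroup (Fin 3) F) : Matrix (Fin 3) (Fin 3) F) =
        (1 + single 2 1 1) * !![1, u.1 0 1, u.1 0 2; 0, 1, u.1 1 2; 0, 0, 1] * (1 + single 2 1 (-1)) := by
      rw [hw, Matrix.SpecialLinearGroup.transvection_inv, ← entries hu]
      rfl
    rw [h5, if_neg (by decide)] at h4
    simpa [Matrix.mul_apply, Fin.sum_univ_three, Matrix.one_apply, single_apply] using h4
  · exact H229.le_pCoreOf Subgroup.le_normalizer le_rfl (isPGroup_PU.to_le A_le)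

theorem core_B [CharP F 2] :
    pCoreOf 2 (Subgroup.normalizer (B F : Set (Matrix.ProjectiveSpecialLinearGroup (Fin 3) F))) = B F := by
  apply le_antisymm
  · intro x hx
    obtain ⟨u, hu, rfl⟩ := sylow_le PU_norm_B hx
    refine ⟨u, mem_SB hu ?_, rfl⟩
    have h21 : (1 : Fin 3) ≠ 0 := by decide
    set w : Matrix.SpecialLinearGroup (Fin 3) F := Matrix.SpecialLinearGroup.transvection h21 1 with hw
    have hwA : pr w ∈ Subgroup.normalizer (B F : Set (Matrix.ProjectiveSpecialLinearGroup (Fin 3) F)) := by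
      refine mem_norm_B.2 ⟨1, ?_⟩
      have e1 : ((w⁻¹ : Matrix.SpecialLinearGroup (Fin 3) F) : Matrix (Fin 3) (Fin 3) F) = 1 + single 1 0 (-1) := by
        rw [hw, Matrix.SpecialLinearGroup.transvection_inv]
        rfl
      rw [e1]
      ext i
      fin_cases i <;> simp [Matrix.vecMul, dotProduct, Fin.sum_univ_three, Matrix.one_apply, single_apply]
    have h1 : pr w * pr u * (pr w)⁻¹ ∈ pCoreOf 2 (Subgroup.normalizer (B F : Set (Matrix.ProjectiveSpecialLinearGroup (Fin 3) F))) :=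
      (Subgroup.mem_normalizer_iff.1 (H229.le_norm_pCoreOf 2 _ hwA) _).1 hx
    have h2 := sylow_le PU_norm_B h1
    rw [← map_inv, ← map_mul, ← map_mul] at h2
    have h3 := upper_of_pr hu h2
    rw [mem_upper] at h3
    have h4 := h3 1 0 (by decide)
    have h5 : ((w * u * w⁻¹ : Matrix.SpecialLinearGroup (Fin 3) F) : Matrix (Fin 3) (Fin 3) F) =
        (1 + single 1 0 1) * !![1, u.1 0 1, u.1 0 2; 0, 1, u.1 1 2; 0, 0, 1] * (1 + single 1 0 (-1)) := by
      rw [hw, Matrix.SpecialLinearGroup.transvection_inv, ← entries hu]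
      rfl
    rw [h5, if_neg (by decide)] at h4
    simpa [Matrix.mul_apply, Fin.sum_univ_three, Matrix.one_apply, single_apply] using h4
  · exact H229.le_pCoreOf Subgroup.le_normalizer le_rfl (isPGroup_PU.to_le B_le)

/-! ### automorphisms -/

theorem mem_or_of_sq [CharP F 2] {x : Matrix.ProjectiveSpecialLinearGroup (Fin 3) F} (hx : x ∈ PU F) (h : x * x = 1) :
    x ∈ A F ∨ x ∈ B F := by
  obtain ⟨u, hu, rfl⟩ := hx
  have h1 : u * u = 1 := by
    apply pr_injOn_upper (mul_mem hu hu) (one_mem _)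
    rw [map_mul, h, map_one]
  have h2 := congrFun (congrFun (congrArg Subtype.val h1) 0) 2
  rw [Matrix.SpecialLinearGroup.coe_mul, entries hu, Matrix.SpecialLinearGroup.coe_one] at h2
  have h22 : u.1 0 2 + u.1 0 2 = 0 := CharTwo.add_self_eq_zero _
  have h3 : u.1 0 1 * u.1 1 2 = 0 := by
    have h4 : u.1 0 2 + u.1 0 1 * u.1 1 2 + u.1 0 2 = 0 := by
      simpa [Matrix.mul_apply, Fin.sum_univ_three, Matrix.one_apply] using h2
    linear_combination h4 - h22
  rcases mul_eq_zero.1 h3 with h5 | h5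
  · exact Or.inr ⟨u, mem_SB hu h5, rfl⟩
  · exact Or.inl ⟨u, mem_SA hu h5, rfl⟩

theorem sq_A [CharP F 2] {x : Matrix.ProjectiveSpecialLinearGroup (Fin 3) F} (hx : x ∈ A F) : x * x = 1 := by
  obtain ⟨φ, h, rfl⟩ := mem_A.1 hx
  rw [← map_mul, tr_mul_same_center]
  have h1 : φ + φ = 0 := by
    ext i
    exact CharTwo.add_self_eq_zero _
  have h2 : tr (e0 F) (φ + φ) (by rw [add_dotProduct, h, add_zero]) = 1 := by
    apply Subtype.ext
    change 1 + vecMulVec _ _ = (1 : Matrix (Fin 3) (Fin 3) F)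
    rw [h1, vecMulVec_zero, add_zero]
  rw [h2, map_one]

theorem sq_B [CharP F 2] {x : Matrix.ProjectiveSpecialLinearGroup (Fin 3) F} (hx : x ∈ B F) : x * x = 1 := by
  obtain ⟨φ, h, rfl⟩ := mem_B.1 hx
  rw [← map_mul, tr_mul_same_axis]
  have h1 : φ + φ = 0 := by
    ext i
    exact CharTwo.add_self_eq_zero _
  have h2 : tr (φ + φ) (e2 F) (by rw [dotProduct_add, h, add_zero]) = 1 := by
    apply Subtype.ext
    change 1 + vecMulVec _ _ = (1 : Matrix (Fin 3) (Fin 3) F)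
    rw [h1, zero_vecMulVec, add_zero]
  rw [h2, map_one]

theorem le_or_le {H : Type*} [Group H] {N A B : Subgroup H} (h : ∀ x ∈ N, x ∈ A ∨ x ∈ B) : N ≤ A ∨ N ≤ B := by
  by_contra hc
  push Not at hc
  obtain ⟨⟨a, ha, ha'⟩, b, hb, hb'⟩ := (⟨SetLike.not_le_iff_exists.1 hc.1, SetLike.not_le_iff_exists.1 hc.2⟩ :
    (∃ a ∈ N, a ∉ A) ∧ (∃ b ∈ N, b ∉ B))
  have h1 : a ∈ B := (h a ha).resolve_left ha'
  have h2 : b ∈ A := (h b hb).resolve_right hb'
  rcases h (a * b) (mul_mem ha hb) with h3 | h3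
  · exact ha' ((Subgroup.mul_mem_cancel_right A h2).1 h3)
  · exact hb' ((Subgroup.mul_mem_cancel_left B h1).1 h3)

/-- a non-involution of the unitriangular group is not in `A`, nor in `B` -/
theorem not_PU_le [CharP F 2] : ¬ PU F ≤ A F ∧ ¬ PU F ≤ B F := by
  have h0 : (Pi.single 1 1 : Fin 3 → F) ⬝ᵥ e0 F = 0 := by simp
  have h0' : e2 F ⬝ᵥ (Pi.single 1 1 : Fin 3 → F) = 0 := by simp
  set a := tr (e0 F) (Pi.single 1 1) h0 with ha
  set b := tr (Pi.single 1 1) (e2 F) h0' with hb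
  have h1 : a * b ∈ upper 3 F := mul_mem (SA_le ⟨_, _, rfl⟩) (SB_le ⟨_, _, rfl⟩)
  have h2 : ¬ (pr (a * b) * pr (a * b) = 1) := by
    intro h
    have h3 : (a * b) * (a * b) = 1 := by
      apply pr_injOn_upper (mul_mem h1 h1) (one_mem _)
      rw [map_mul, h, map_one]
    have h4 := congrArg (fun g : Matrix.SpecialLinearGroup (Fin 3) F => (g : Matrix (Fin 3) (Fin 3) F) *ᵥ e2 F) h3
    have h5 := congrFun h4 0
    simp only [sl_mul_mulVec] at h5
    rw [ha, hb] at h5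
    simp only [tr_mulVec] at h5
    simp [dotProduct, Fin.sum_univ_three] at h5
    rw [(CharTwo.add_self_eq_zero (1 : F)), add_zero] at h5
    exact one_ne_zero h5
  have h6 : pr (a * b) ∈ PU F := ⟨_, h1, rfl⟩
  exact ⟨fun h => h2 (sq_A (h h6)), fun h => h2 (sq_B (h h6))⟩

theorem aut [CharP F 2] (α : MulAut (Matrix.ProjectiveSpecialLinearGroup (Fin 3) F))
    (hα : (PU F).map α.toMonoidHom = PU F) :
    ((A F).map α.toMonoidHom = A F ∧ (B F).map α.toMonoidHom = B F) ∨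
      ((A F).map α.toMonoidHom = B F ∧ (B F).map α.toMonoidHom = A F) := by
  have hcard : ∀ N : Subgroup (Matrix.ProjectiveSpecialLinearGroup (Fin 3) F),
      Nat.card ↥(N.map α.toMonoidHom) = Nat.card ↥N := fun N =>
    Nat.card_congr (N.equivMapOfInjective _ α.injective).toEquiv.symm
  have hA : (A F).map α.toMonoidHom ≤ A F ∨ (A F).map α.toMonoidHom ≤ B F := by
    apply le_or_le
    rintro _ ⟨x, hx, rfl⟩
    apply mem_or_of_sq
    · rw [← hα]
      exact ⟨x, A_le hx, rfl⟩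
    · rw [← map_mul, sq_A hx, map_one]
  have hB : (B F).map α.toMonoidHom ≤ A F ∨ (B F).map α.toMonoidHom ≤ B F := by
    apply le_or_le
    rintro _ ⟨x, hx, rfl⟩
    apply mem_or_of_sq
    · rw [← hα]
      exact ⟨x, B_le hx, rfl⟩
    · rw [← map_mul, sq_B hx, map_one]
  have hPU : (A F).map α.toMonoidHom ⊔ (B F).map α.toMonoidHom = PU F := by
    rw [← Subgroup.map_sup, ← PU_eq, hα]
  rcases hA with hA | hA <;> rcases hB with hB | hB
  · exact absurd (hPU.ge.trans (sup_le hA hB)) not_PU_le.1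
  · left
    exact ⟨Subgroup.eq_of_le_of_card_ge hA (hcard _).ge, Subgroup.eq_of_le_of_card_ge hB (hcard _).ge⟩
  · right
    have h1 : Nat.card ↥(A F) ≤ Nat.card ↥(B F) := by
      rw [← hcard (A F)]
      exact Subgroup.card_le_of_le hA
    have h2 : Nat.card ↥(B F) ≤ Nat.card ↥(A F) := by
      rw [← hcard (B F)]
      exact Subgroup.card_le_of_le hB
    exact ⟨Subgroup.eq_of_le_of_card_ge hA (by rw [hcard]; exact h2),
      Subgroup.eq_of_le_of_card_ge hB (by rw [hcard]; exact h1)⟩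
  · exact absurd (hPU.ge.trans (sup_le hA hB)) not_PU_le.2

/-! ### the 2-local subgroups over `P` -/

theorem inf_le : Subgroup.normalizer (A F : Set (Matrix.ProjectiveSpecialLinearGroup (Fin 3) F)) ⊓
    Subgroup.normalizer (B F : Set (Matrix.ProjectiveSpecialLinearGroup (Fin 3) F)) ≤
      Subgroup.normalizer (PU F : Set (Matrix.ProjectiveSpecialLinearGroup (Fin 3) F)) := by
  intro x hx
  rw [H229.mem_norm, PU_eq, H229.cj_sup, H229.mem_norm.1 hx.1, H229.mem_norm.1 hx.2]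

theorem ne_A : A F ≠ ⊥ := by
  intro h
  have h0 : (Pi.single 1 1 : Fin 3 → F) ⬝ᵥ e0 F = 0 := by simp
  have h1 : pr (tr (e0 F) (Pi.single 1 1) h0) ∈ A F := mem_A.2 ⟨_, h0, rfl⟩
  rw [h, Subgroup.mem_bot, ← map_one pr] at h1
  have h2 := pr_injOn_upper (SA_le ⟨_, h0, rfl⟩) (one_mem _) h1
  have h3 := congrFun (congrFun (congrArg Subtype.val h2) 0) 1
  change (1 + vecMulVec _ _ : Matrix (Fin 3) (Fin 3) F) 0 1 = (1 : Matrix (Fin 3) (Fin 3) F) 0 1 at h3
  rw [Matrix.add_apply, vecMulVec_apply] at h3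
  simp at h3

theorem ne_B : B F ≠ ⊥ := by
  intro h
  have h0 : e2 F ⬝ᵥ (Pi.single 1 1 : Fin 3 → F) = 0 := by simp
  have h1 : pr (tr (Pi.single 1 1) (e2 F) h0) ∈ B F := mem_B.2 ⟨_, h0, rfl⟩
  rw [h, Subgroup.mem_bot, ← map_one pr] at h1
  have h2 := pr_injOn_upper (SB_le ⟨_, h0, rfl⟩) (one_mem _) h1
  have h3 := congrFun (congrFun (congrArg Subtype.val h2) 1) 2
  change (1 + vecMulVec _ _ : Matrix (Fin 3) (Fin 3) F) 1 2 = (1 : Matrix (Fin 3) (Fin 3) F) 1 2 at h3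
  rw [Matrix.add_apply, vecMulVec_apply] at h3
  simp at h3

/-- a common nontrivial `F₀ ≤ A ∩ B` is only normalised by `N(A) ∩ N(B)` -/
theorem le_norms {X F₀ : Subgroup (Matrix.ProjectiveSpecialLinearGroup (Fin 3) F)} (hF : F₀ ≤ A F ⊓ B F)
    (hX : X ≤ Subgroup.normalizer (F₀ : Set (Matrix.ProjectiveSpecialLinearGroup (Fin 3) F)))
    {f : Matrix.ProjectiveSpecialLinearGroup (Fin 3) F} (hf : f ∈ F₀) (hf1 : f ≠ 1) :
    X ≤ Subgroup.normalizer (A F : Set (Matrix.ProjectiveSpecialLinearGroup (Fin 3) F)) ⊓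
    Subgroup.normalizer (B F : Set (Matrix.ProjectiveSpecialLinearGroup (Fin 3) F)) := by
  intro x hx
  obtain ⟨g, rfl⟩ := pr_surjective x
  have h1 : pr g * f * (pr g)⁻¹ ∈ A F ⊓ B F := hF ((Subgroup.mem_normalizer_iff.1 (hX hx) _).1 hf)
  refine ⟨?_, ?_⟩
  · obtain ⟨φ, h, rfl⟩ := mem_A.1 (hF hf).1
    refine mem_norm_A.2 (e0_of (h := h) ?_ h1.1)
    rintro rfl
    apply hf1
    rw [← map_one pr]
    congr 1
    apply Subtype.ext
    change 1 + vecMulVec _ _ = (1 : Matrix (Fin 3) (Fin 3) F)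
    rw [vecMulVec_zero, add_zero]
  · obtain ⟨φ, h, rfl⟩ := mem_B.1 (hF hf).2
    refine mem_norm_B.2 (e2_of (h := h) ?_ h1.2)
    rintro rfl
    apply hf1
    rw [← map_one pr]
    congr 1
    apply Subtype.ext
    change 1 + vecMulVec _ _ = (1 : Matrix (Fin 3) (Fin 3) F)
    rw [zero_vecMulVec, add_zero]

theorem gen : Subgroup.normalizer (A F : Set (Matrix.ProjectiveSpecialLinearGroup (Fin 3) F)) ⊔
    Subgroup.normalizer (B F : Set (Matrix.ProjectiveSpecialLinearGroup (Fin 3) F)) = ⊤ := by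
  rw [eq_top_iff]
  intro x _
  obtain ⟨g, rfl⟩ := pr_surjective x
  have hj : ∀ (i j : Fin 3) (hij : i ≠ j) (c : F), j ≠ 0 →
      pr (Matrix.SpecialLinearGroup.transvection hij c) ∈ Subgroup.normalizer (A F : Set (Matrix.ProjectiveSpecialLinearGroup (Fin 3) F)) := by
    intro i j hij c h
    refine mem_norm_A.2 ⟨1, ?_⟩
    rw [transvection_eq_tr, tr_mulVec]
    simp [h]
  have hi : ∀ (i j : Fin 3) (hij : i ≠ j) (c : F), i ≠ 2 →
      pr (Matrix.SpecialLinearGroup.transvection hij c) ∈ Subgroup.normalizer (B F : Set (Matrix.ProjectiveSpecialLinearGroup (Fin 3) F)) := by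
    intro i j hij c h
    refine mem_norm_B.2 ⟨1, ?_⟩
    rw [Matrix.SpecialLinearGroup.transvection_inv]
    change e2 F ᵥ* (1 + single i j (-c)) = _
    rw [vecMul_add, vecMul_one]
    have h1 : e2 F ᵥ* single i j (-c) = 0 := by
      ext k
      simp only [Matrix.vecMul, dotProduct, Fin.sum_univ_three, single_apply, Pi.zero_apply]
      have h2 : ¬ (i = 2 ∧ j = k) := fun h' => h h'.1
      simp [h2]
    rw [h1, add_zero, one_smul]
  refine Cfsg.Agent.LieClassical.SLGen.transvection_induction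
    (fun x => pr x ∈ Subgroup.normalizer (A F : Set (Matrix.ProjectiveSpecialLinearGroup (Fin 3) F)) ⊔
    Subgroup.normalizer (B F : Set (Matrix.ProjectiveSpecialLinearGroup (Fin 3) F))) (fun i j hij c => ?_)
      (fun A B hA hB => by rw [map_mul]; exact mul_mem hA hB) g
  by_cases hj0 : j = 0
  · by_cases hi2 : i = 2
    · subst hi2 hj0
      have h21 : (2 : Fin 3) ≠ 1 := by decide
      have h10 : (1 : Fin 3) ≠ 0 := by decide
      have h1 : Matrix.SpecialLinearGroup.transvection hij c =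
          Matrix.SpecialLinearGroup.transvection h21 c * Matrix.SpecialLinearGroup.transvection h10 (1 : F) *
            (Matrix.SpecialLinearGroup.transvection h21 c)⁻¹ * (Matrix.SpecialLinearGroup.transvection h10 (1 : F))⁻¹ := by
        rw [Matrix.SpecialLinearGroup.transvection_inv, Matrix.SpecialLinearGroup.transvection_inv]
        apply Subtype.ext
        change (1 + single 2 0 c : Matrix (Fin 3) (Fin 3) F) =
          (1 + single 2 1 c) * (1 + single 1 0 1) * (1 + single 2 1 (-c)) * (1 + single 1 0 (-1))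
        ext i j
        fin_cases i <;> fin_cases j <;>
          simp [Matrix.mul_apply, Fin.sum_univ_three, Matrix.one_apply, single_apply]
      rw [h1, map_mul, map_mul, map_mul, map_inv, map_inv]
      have h2 := Subgroup.mem_sup_left (T := Subgroup.normalizer (B F : Set (Matrix.ProjectiveSpecialLinearGroup (Fin 3) F)))
        (hj 2 1 h21 c (by decide))
      have h3 := Subgroup.mem_sup_right (S := Subgroup.normalizer (A F : Set (Matrix.ProjectiveSpecialLinearGroup (Fin 3) F)))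
        (hi 1 0 h10 (1 : F) (by decide))
      exact mul_mem (mul_mem (mul_mem h2 h3) (inv_mem h2)) (inv_mem h3)
    · exact Subgroup.mem_sup_right (hi i j hij c hi2)
  · exact Subgroup.mem_sup_left (hj i j hij c hj0)

theorem loc [CharP F 2] {X : Subgroup (Matrix.ProjectiveSpecialLinearGroup (Fin 3) F)} (hX : PU F ≤ X)
    (hR : pCoreOf 2 X ≠ ⊥) :
    X ≤ Subgroup.normalizer (A F : Set (Matrix.ProjectiveSpecialLinearGroup (Fin 3) F)) ∨
    X ≤ Subgroup.normalizer (B F : Set (Matrix.ProjectiveSpecialLinearGroup (Fin 3) F)) := by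
  -- the fixed vectors
  set Fx : Set (Fin 3 → F) := {v | ∀ u ∈ upper 3 F, pr u ∈ pCoreOf 2 X → (u : Matrix (Fin 3) (Fin 3) F) *ᵥ v = v} with hFx
  have hinv : ∀ g : Matrix.SpecialLinearGroup (Fin 3) F, pr g ∈ X → ∀ v ∈ Fx, (g : Matrix (Fin 3) (Fin 3) F) *ᵥ v ∈ Fx := by
    intro g hg v hv u hu hu'
    have h1 : pr (g⁻¹ * u * g) ∈ pCoreOf 2 X := by
      have h2 := (Subgroup.mem_normalizer_iff.1 (H229.le_norm_pCoreOf 2 X (inv_mem hg)) (pr u)).1 hu'
      rw [map_mul, map_mul, map_inv]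
      rwa [inv_inv] at h2
    have h2 : g⁻¹ * u * g ∈ upper 3 F := by
      have h3 := upper_of_pr (g := g⁻¹) hu (by rw [inv_inv]; exact sylow_le hX h1)
      rwa [inv_inv] at h3
    have h3 := hv _ h2 h1
    have h4 := congrArg (fun w => (g : Matrix (Fin 3) (Fin 3) F) *ᵥ w) h3
    simp only [← sl_mul_mulVec] at h4
    rw [← sl_mul_mulVec]
    have h5 : g * (g⁻¹ * u * g) = u * g := by group
    rwa [h5] at h4
  have he0 : e0 F ∈ Fx := by
    intro u hu _
    rw [entries hu]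
    ext i
    fin_cases i <;> simp [Matrix.mulVec, dotProduct, Fin.sum_univ_three]
  have hval : ∀ u ∈ upper 3 F, ∀ v : Fin 3 → F, (u : Matrix (Fin 3) (Fin 3) F) *ᵥ v =
      ![v 0 + u.1 0 1 * v 1 + u.1 0 2 * v 2, v 1 + u.1 1 2 * v 2, v 2] := by
    intro u hu v
    conv_lhs => rw [entries hu]
    ext i
    fin_cases i <;> simp [Matrix.mulVec, dotProduct, Fin.sum_univ_three]
  -- the last coordinate is zero
  have h2 : ∀ v ∈ Fx, v 2 = 0 := by
    intro v hv
    by_contra hv2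
    apply hR
    rw [eq_bot_iff]
    intro x hx
    obtain ⟨u, hu, rfl⟩ := sylow_le hX hx
    have h12 : (1 : Fin 3) < 2 := by decide
    have ht := transvection_mem_upper h12 (1 : F)
    have h3 := hinv _ (hX ⟨_, ht, rfl⟩) v hv u hu hx
    have h4 := hv u hu hx
    rw [hval u hu] at h3 h4
    rw [hval _ ht] at h3
    have e1 : (Matrix.SpecialLinearGroup.transvection h12.ne (1 : F)).1 0 1 = 0 := by
      change (1 + single 1 2 1 : Matrix (Fin 3) (Fin 3) F) 0 1 = 0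
      simp [single_apply]
    have e2 : (Matrix.SpecialLinearGroup.transvection h12.ne (1 : F)).1 0 2 = 0 := by
      change (1 + single 1 2 1 : Matrix (Fin 3) (Fin 3) F) 0 2 = 0
      simp [single_apply]
    have e3 : (Matrix.SpecialLinearGroup.transvection h12.ne (1 : F)).1 1 2 = 1 := by
      change (1 + single 1 2 1 : Matrix (Fin 3) (Fin 3) F) 1 2 = 1
      simp
    rw [e1, e2, e3] at h3
    have a0 := congrFun h3 0
    have b0 := congrFun h4 0
    have b1 := congrFun h4 1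
    simp at a0 b0 b1
    have c12 : u.1 1 2 = 0 := by
      rcases b1 with h | h
      · exact h
      · exact absurd h hv2
    have c01 : u.1 0 1 = 0 := by
      have h5 : u.1 0 1 * v 2 = 0 := by linear_combination a0 - b0
      exact (mul_eq_zero.1 h5).resolve_right hv2
    have c02 : u.1 0 2 = 0 := by
      have h5 : u.1 0 2 * v 2 = 0 := by
        rw [c01] at b0
        linear_combination b0
      exact (mul_eq_zero.1 h5).resolve_right hv2
    rw [Subgroup.mem_bot, ← map_one pr]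
    congr 1
    apply Subtype.ext
    rw [entries hu, c01, c02, c12, Matrix.SpecialLinearGroup.coe_one]
    ext i j
    fin_cases i <;> fin_cases j <;> rfl
  by_cases h1 : ∀ v ∈ Fx, v 1 = 0
  · left
    intro x hx
    obtain ⟨g, rfl⟩ := pr_surjective x
    have h3 := hinv g hx _ he0
    refine mem_norm_A.2 ⟨((g : Matrix (Fin 3) (Fin 3) F) *ᵥ e0 F) 0, ?_⟩
    ext i
    fin_cases i
    · simp
    · simpa using h1 _ h3
    · simpa using h2 _ h3
  · right
    push Not at h1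
    obtain ⟨v, hv, hv1⟩ := h1
    have hv2 := h2 v hv
    have he1 : (Pi.single 1 1 : Fin 3 → F) ∈ Fx := by
      intro u hu hu'
      have h4 := congrFun (hv u hu hu') 0
      rw [hval u hu] at h4 ⊢
      rw [hv2] at h4
      simp at h4
      have h5 : u.1 0 1 = 0 := by
        rcases h4 with h | h
        · exact h
        · exact absurd h hv1
      rw [h5]
      ext i
      fin_cases i <;> simp
    intro x hx
    obtain ⟨g, rfl⟩ := pr_surjective x
    have h3 := h2 _ (hinv g⁻¹ (by rw [map_inv]; exact inv_mem hx) _ he0)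
    have h4 := h2 _ (hinv g⁻¹ (by rw [map_inv]; exact inv_mem hx) _ he1)
    refine mem_norm_B.2 ⟨((g⁻¹ : Matrix.SpecialLinearGroup (Fin 3) F) : Matrix (Fin 3) (Fin 3) F) 2 2, ?_⟩
    ext i
    fin_cases i
    · simpa [Matrix.mulVec, Matrix.vecMul, dotProduct, Fin.sum_univ_three] using h3
    · simpa [Matrix.mulVec, Matrix.vecMul, dotProduct, Fin.sum_univ_three] using h4
    · simp

theorem wpair [CharP F 2] : Cfsg.Agent.H17.LT.WPair (PU F) (A F) (B F) where
  neA := ne_A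
  neB := ne_B
  PA := PU_norm_A
  PB := PU_norm_B
  coreA := core_A
  coreB := core_B
  aut := aut
  loc := fun X hX hR => Or.inr (loc hX hR)
  inf := inf_le
  gen := gen
  inv := by
    intro X F₀ _ hX' _ hF hXF f hf hf1
    exact absurd ((le_norms hF hXF hf hf1).trans inf_le) hX'

/-- **Row W for `PSL₃(2ⁿ)`** -/
theorem rowW_psl3 [CharP F 2] : Cfsg.Agent.H17.LT.RowW (Matrix.ProjectiveSpecialLinearGroup (Fin 3) F) := by
  obtain ⟨S, hS⟩ := exists_sylow (F := F) 3 2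
  refine ⟨S, A F, B F, ?_⟩
  rw [hS]
  exact wpair

end Cfsg.Agent.H258.W3
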